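import Cfsg.Agent.H620.PNorm
import Cfsg.Agent.H713.Engine

/-!
# Sporadic rows of S4555 and S4559 from characters of defect zero (helper998)
-/

set_option autoImplicit false

namespace Cfsg.Agent.H998.PV

open Cfsg Cfsg.Agent.H665.NoPQ Cfsg.Agent.H620.PNorm

theorem vOrdP_of_hasDZ {K : Type*} [Group K] [Finite K] {p : ℕ} (hp : p.Prime) (h : HasDZ p K)
    (hd : p ∣ Nat.card K) : VOrdP p K := by
  have : Fact p.Prime := ⟨hp⟩
  obtain ⟨x, hx⟩ := exists_prime_orderOf_dvd_card' (G := K) p hd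
  exact ⟨x, hx, Cfsg.Agent.H713.HasDZ.vz h (by rw [hx])⟩

/-- From a character of defect zero of a group of known order. -/
theorem vOrdP_of_card {K : Type*} [Group K] {p n : ℕ} (hp : p.Prime) (h : HasDZ p K)
    (hn : Nat.card K = n) (h0 : n ≠ 0) (hd : p ∣ n) : VOrdP p K := by
  have : Finite K := Nat.finite_of_card_ne_zero (by rw [hn]; exact h0)
  exact vOrdP_of_hasDZ hp h (by rw [hn]; exact hd)

/-- The same for a group isomorphic to a model. -/
theorem vOrdP_of_equiv {K S : Type*} [Group K] [Group S] (e : K ≃* S) {p n : ℕ} (hp : p.Prime)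
    (h : HasDZ p S) (hn : Nat.card S = n) (h0 : n ≠ 0) (hd : p ∣ n) : VOrdP p K :=
  (vOrdP_of_card hp h hn h0 hd).mulEquiv e.symm

end Cfsg.Agent.H998.PV
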