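import Cfsg.Agent.H998.PV.Base
import Cfsg.Agent.H710.Spor.He

/-!
# The row of the Held group for the prime two (helper998)
-/

set_option autoImplicit false

namespace Cfsg.Agent.H998.PV

open Cfsg Cfsg.Agent.H620.PNorm

universe u

theorem he_2 {K : Type u} [Group K] (h : Spor.IsoHe K) : VPow 2 K := by
  obtain ⟨e⟩ := h
  refine VPow.mulEquiv ?_ e.symm
  exact ⟨Cfsg.Agent.H710.Spor.HeCent.x8, ⟨3, by rw [Cfsg.Agent.H710.Spor.He.o8]; norm_num⟩,
    Cfsg.Agent.H710.Spor.He.vz8⟩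

end Cfsg.Agent.H998.PV
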