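import Cfsg.Agent.H998.PV.Base
import Cfsg.Agent.H894.J4Two
import Cfsg.Agent.H653.Spor.J4Dz
import Cfsg.Agent.H419.Row

/-!
# The rows of the fourth Janko group (helper998)
-/

set_option autoImplicit false

namespace Cfsg.Agent.H998.PV

open Cfsg Cfsg.Agent.H620.PNorm

universe u

theorem finite_j4 : Finite Spor.J4 := Nat.finite_of_card_ne_zero (by rw [H653.Spor.J4Dz.card_K]; norm_num)

theorem hasDZ_j4 {p n d : ℕ} (hp : p.Prime) {m : ℕ} (χ : IrrCharacter Spor.J4)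
    (hχ : charDegree (χ : Spor.J4 → ℂ) = d) (hd : p ^ n ∣ d) (hm : 86775571046077562880 = p ^ n * m)
    (h : ¬ p ∣ m) : Cfsg.Agent.H665.NoPQ.HasDZ p Spor.J4 := by
  have := finite_j4
  refine Cfsg.Agent.H419.Row.dz_of_dvd (n := n) χ (by rw [hχ]; exact hd) ?_ hp
  rw [H653.Spor.J4Dz.card_K, hm]
  have hm0 : m ≠ 0 := fun h0 => h (h0 ▸ dvd_zero p)
  rw [Nat.factorization_mul (pow_ne_zero _ hp.ne_zero) hm0, Finsupp.add_apply, hp.factorization_pow,
    Finsupp.single_eq_same, Nat.factorization_eq_zero_of_not_dvd h, add_zero]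

theorem j4_2 {K : Type u} [Group K] (h : Spor.IsoJ4 K) : VOrdP 2 K := by
  obtain ⟨e⟩ := h
  obtain ⟨χ, hχ⟩ := Cfsg.Agent.H894.J4Two.exists_degree
  exact vOrdP_of_equiv e (by norm_num) (hasDZ_j4 (n := 21) (m := 86775571046077562880 / 2 ^ 21)
    (by norm_num) χ hχ (by norm_num) (by norm_num) (by norm_num)) H653.Spor.J4Dz.card_K (by norm_num) (by norm_num)

theorem j4_2' {K : Type u} [Group K] (h : Spor.IsoJ4 K) : VPow 2 K := (j4_2 h).vPow

theorem j4_3 {K : Type u} [Group K] (h : Spor.IsoJ4 K) : VOrdP 3 K := by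
  obtain ⟨e⟩ := h
  obtain ⟨d, ⟨χ, hχ⟩, hd⟩ := H653.Spor.J4Dz.exists_deg (S := Spor.J4) ⟨MulEquiv.refl _⟩ (m := 27) (by simp)
  exact vOrdP_of_equiv e (by norm_num) (hasDZ_j4 (n := 3) (m := 86775571046077562880 / 3 ^ 3)
    (by norm_num) χ hχ hd (by norm_num) (by norm_num)) H653.Spor.J4Dz.card_K (by norm_num) (by norm_num)

theorem j4_11 {K : Type u} [Group K] (h : Spor.IsoJ4 K) : VOrdP 11 K := by
  obtain ⟨e⟩ := h
  obtain ⟨d, ⟨χ, hχ⟩, hd⟩ := H653.Spor.J4Dz.exists_deg (S := Spor.J4) ⟨MulEquiv.refl _⟩ (m := 1331) (by simp)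
  exact vOrdP_of_equiv e (by norm_num) (hasDZ_j4 (n := 3) (m := 86775571046077562880 / 11 ^ 3)
    (by norm_num) χ hχ hd (by norm_num) (by norm_num)) H653.Spor.J4Dz.card_K (by norm_num) (by norm_num)

end Cfsg.Agent.H998.PV
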