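import Cfsg.Agent.H998.PV.Base
import Cfsg.Agent.H143.NB.Mathieu
import Cfsg.Agent.NotCT.Orders

/-!
# The row of M12 for the prime three (helper998)
-/

set_option autoImplicit false

namespace Cfsg.Agent.H998.PV

open Cfsg Cfsg.Agent.H620.PNorm

universe u

theorem m12_3 {K : Type u} [Group K] (h : Spor.IsoM12 K) : VOrdP 3 K := by
  obtain ⟨e⟩ := h
  exact vOrdP_of_equiv e (by norm_num) Cfsg.Agent.H143.NB.Mathieu.hasDZ_m12 (NotCT.Orders.m12 ⟨MulEquiv.refl _⟩)
    (by norm_num) (by norm_num)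

end Cfsg.Agent.H998.PV
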