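import Cfsg.Agent.H998.PV.Base
import Cfsg.Agent.H681.Van.McLFive
import Cfsg.Agent.NotCT.Orders

/-!
# The rows of the McLaughlin group (helper998)
-/

set_option autoImplicit false

namespace Cfsg.Agent.H998.PV

open Cfsg Cfsg.Agent.H620.PNorm

universe u

theorem mcl_3 {K : Type u} [Group K] (h : Spor.IsoMcL K) : VOrdP 3 K :=
  vOrdP_of_card (by norm_num) (Cfsg.Agent.H681.Van.McLFive.hasDZ_three h) (NotCT.Orders.mcl h)
    (by norm_num) (by norm_num)

theorem mcl_5 {K : Type u} [Group K] (h : Spor.IsoMcL K) : VOrdP 5 K :=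
  vOrdP_of_card (by norm_num) (Cfsg.Agent.H681.Van.McLFive.hasDZ_five h) (NotCT.Orders.mcl h)
    (by norm_num) (by norm_num)

end Cfsg.Agent.H998.PV
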