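import Cfsg.Agent.H998.PV.Base
import Cfsg.Agent.H210.On7.Loc
import Cfsg.Agent.H419.Row
import Cfsg.Agent.NotCT.Orders

/-!
# The rows of the O'Nan group for the primes two and seven (helper998)
-/

set_option autoImplicit false

namespace Cfsg.Agent.H998.PV

open Cfsg Cfsg.Agent.H620.PNorm

universe u

theorem hasDZ_on {p n m : ℕ} (hp : p.Prime) (hd : p ^ n ∣ 175616) (hm : 460815505920 = p ^ n * m)
    (h : ¬ p ∣ m) : Cfsg.Agent.H665.NoPQ.HasDZ p Spor.ON := by
  have hc : Nat.card Spor.ON = 460815505920 := NotCT.Orders.on ⟨MulEquiv.refl _⟩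
  have : Finite Spor.ON := Nat.finite_of_card_ne_zero (by rw [hc]; norm_num)
  obtain ⟨χ, hχ⟩ := Cfsg.Agent.H210.On7.exists_charDegree
  refine Cfsg.Agent.H419.Row.dz_of_dvd (n := n) χ (by rw [hχ]; exact hd) ?_ hp
  rw [hc, hm]
  have hm0 : m ≠ 0 := fun h0 => h (h0 ▸ dvd_zero p)
  rw [Nat.factorization_mul (pow_ne_zero _ hp.ne_zero) hm0, Finsupp.add_apply, hp.factorization_pow,
    Finsupp.single_eq_same, Nat.factorization_eq_zero_of_not_dvd h, add_zero]

theorem on_2 {K : Type u} [Group K] (h : Spor.IsoON K) : VOrdP 2 K := by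
  obtain ⟨e⟩ := h
  exact vOrdP_of_equiv e (by norm_num) (hasDZ_on (n := 9) (m := 460815505920 / 2 ^ 9) (by norm_num)
    (by norm_num) (by norm_num) (by norm_num)) (NotCT.Orders.on ⟨MulEquiv.refl _⟩) (by norm_num) (by norm_num)

theorem on_2' {K : Type u} [Group K] (h : Spor.IsoON K) : VPow 2 K := (on_2 h).vPow

theorem on_7 {K : Type u} [Group K] (h : Spor.IsoON K) : VOrdP 7 K := by
  obtain ⟨e⟩ := h
  exact vOrdP_of_equiv e (by norm_num) (hasDZ_on (n := 3) (m := 460815505920 / 7 ^ 3) (by norm_num)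
    (by norm_num) (by norm_num) (by norm_num)) (NotCT.Orders.on ⟨MulEquiv.refl _⟩) (by norm_num) (by norm_num)

end Cfsg.Agent.H998.PV
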